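import Cfsg.Agent.H477.HC.Adj
import Cfsg.Agent.H167.HasStLie
import Cfsg.Prelude.Def_LieTypeChar

/-!
# S4844 (TEAM PSQ): `p² ∣ |PΩ⁺_{2m}(q)|` gives a character degree divisible by `p²`, `p` odd (helper734)
-/

set_option autoImplicit false

open Cfsg

namespace Cfsg.Agent.H734.PSq

open Cfsg.Agent.Characters Cfsg.Agent.H33 Cfsg.Agent.H477.HC Cfsg.Agent.H53.HC

universe u

/-- the characteristic: the Steinberg character -/
theorem sq_char {p : ℕ} [hp : Fact p.Prime] {S : Type u} [Group S] [Finite S] [IsSimpleGroup S]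
    (h : IsLieTypeChar p S) {a : ℕ} (hd : p ^ a ∣ Nat.card S) : IM (p ^ a) S := by
  obtain ⟨χ, hχ, h1, -⟩ := Cfsg.Agent.H167.StChar.hasSt_of_lie hp.1 h
  exact IM.of_apply_one hχ h1 (pow_dvd_pow p ((Nat.Prime.pow_dvd_iff_le_factorization hp.1 Nat.card_pos.ne').1 hd))

/-- `PΩ⁺_{2m}(q)`, cross characteristic -/
theorem sq_plus_main (K : Type u) [Field K] [Finite K] {p : ℕ} [Fact p.Prime] [CharP K p] {m : ℕ}
    (hm : 4 ≤ m) {r : ℕ} (hr : r.Prime) (hr2 : r ≠ 2) (hrp : r ≠ p)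
    (hd : r ^ 2 ∣ Nat.card (POmega K (quadFormPlus m K))) :
    IM (r ^ 2) (POmega K (quadFormPlus m K)) := by
  classical
  have hp : p.Prime := Fact.out
  obtain ⟨s, hs⟩ := card_pow K p
  have hq2 : 2 ≤ Nat.card K := Finite.one_lt_card
  have hd1 : r ^ 2 ∣ Nat.card (isometryGroup K (quadFormPlus m K)) :=
    hd.trans ((Subgroup.card_quotient_dvd_card _).trans (Subgroup.card_subgroup_dvd_card _))
  have hd2 : r ^ 2 ∣ Nat.card (CForm.plusF K m).iso := by
    rwa [← Nat.card_congr (isoQuad (CForm.plusF K m) (plus_hB K m)).toEquiv]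
  rw [card_plusF K (by omega)] at hd2
  have hcop2 : Nat.Coprime (r ^ 2) 2 := Nat.Coprime.pow_left 2 ((Nat.coprime_primes hr Nat.prime_two).2 hr2)
  have hcopq : Nat.Coprime (r ^ 2) (Nat.card K ^ (m * (m - 1))) := by
    rw [hs, ← pow_mul]
    exact Nat.Coprime.pow _ _ ((Nat.coprime_primes hr hp).2 hrp)
  have hd3 : r ^ 2 ∣ (Nat.card K ^ m - 1) * ∏ i ∈ Finset.range (m - 1), (Nat.card K ^ (2 * (i + 1)) - 1) := by
    rw [mul_assoc, mul_assoc] at hd2
    exact hcopq.dvd_of_dvd_mul_left (hcop2.dvd_of_dvd_mul_left hd2)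
  have key : ∀ (k n : ℕ), k + n = m → 3 ≤ k → r ^ 2 ∣ dg (CForm.plusF K (k + n)) k →
      IM (r ^ 2) (POmega K (quadFormPlus m K)) := by
    rintro k n rfl hk hdeg
    obtain ⟨c, hc⟩ := exists_cus_sq K rfl k (by omega) (fun _ => hk) (fun _ => hk) (fun _ => by omega)
    obtain ⟨⟨W₀, hW₀⟩, -⟩ := CForm.plusF_frame (K := K) (p := p) k n
    obtain ⟨e, h1, h2, -⟩ := om_ch (CForm.plusF K (k + n)) (plus_hB K (k + n)) hW₀ hc
      (fun z hz => scal_of (cen_plus K (by omega) z hz)) (plus_idx K hm)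
    exact h1.im (h2 r 2 hr hr2 hdeg)
  obtain ⟨e, he⟩ := plus_dvd_top K (p := p) (m := m) (by omega)
  by_cases hA : r ^ 2 ∣ ∏ i ∈ Finset.range (m - 1), (Nat.card K ^ (2 * (i + 1)) - 1)
  · exact key m 0 (Nat.add_zero m) (by omega) (prime_pow_dvd hr hp hrp (hA.trans he))
  -- `r ∣ q ^ m - 1`, `r ∤ q - 1`
  have hB : r ∣ Nat.card K ^ m - 1 := by
    by_contra h
    exact hA ((Nat.Coprime.pow_left 2 ((Nat.Prime.coprime_iff_not_dvd hr).2 h)).dvd_of_dvd_mul_left hd3)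
  have hC : ¬ r ∣ Nat.card K - 1 := by
    intro h
    apply hA
    have h0 : ∀ i, r ∣ Nat.card K ^ (2 * (i + 1)) - 1 := fun i => h.trans (by
      simpa using pow_sub_one_dvd (Nat.card K) (one_dvd (2 * (i + 1))))
    rw [← Finset.prod_range_mul_prod_Ico _ (show 2 ≤ m - 1 by omega), Finset.prod_range_succ, Finset.prod_range_one,
      pow_two]
    exact Dvd.dvd.mul_right (mul_dvd_mul (h0 0) (h0 1)) _
  have hm1 : m - 1 + 1 = m := by omega
  have hD : ¬ r ∣ Nat.card K ^ (m - 1) - 1 := by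
    intro h
    apply hC
    have h1 : Nat.card K ^ m - 1 = Nat.card K * (Nat.card K ^ (m - 1) - 1) + (Nat.card K - 1) := by
      have h3 : 1 ≤ Nat.card K ^ (m - 1) := Nat.one_le_pow _ _ (by omega)
      have h4 : Nat.card K ^ m = Nat.card K * Nat.card K ^ (m - 1) := by rw [← pow_succ', hm1]
      rw [h4, Nat.mul_sub, mul_one]
      have h5 : Nat.card K * 1 ≤ Nat.card K * Nat.card K ^ (m - 1) := Nat.mul_le_mul_left _ h3
      omega
    rw [h1] at hB
    exact (Nat.dvd_add_right (h.mul_left _)).1 hB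
  refine key (m - 1) 1 hm1 (by omega) ?_
  obtain ⟨e', he'⟩ := plus_dvd K (p := p) (k := m - 1) (n := 1) (by omega) le_rfl
  rw [hm1] at he'
  rw [hm1]
  have h5 : (Nat.card K ^ m - 1) * ∏ i ∈ Finset.range (m - 1), (Nat.card K ^ (2 * (i + 1)) - 1) =
      (Nat.card K - 1) * ((Nat.card K ^ m - 1) * (Nat.card K ^ 1 + 1) *
        ∏ i ∈ Finset.Ico 1 (m - 1), (Nat.card K ^ (2 * (i + 1)) - 1)) := by
    rw [← Finset.prod_range_mul_prod_Ico _ (show 1 ≤ m - 1 by omega), Finset.prod_range_one,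
      show Nat.card K ^ (2 * (0 + 1)) - 1 = (Nat.card K ^ 1 + 1) * (Nat.card K - 1) by
        rw [show 2 * (0 + 1) = 2 * 1 by norm_num, sq_sub, pow_one]]
    ring
  rw [h5] at hd3
  have h6 := (Nat.Coprime.pow_left 2 ((Nat.Prime.coprime_iff_not_dvd hr).2 hC)).dvd_of_dvd_mul_left hd3
  have h7 : r ^ 2 ∣ dg (CForm.plusF K m) (m - 1) * (Nat.card K ^ (m - 1) - 1) :=
    prime_pow_dvd hr hp hrp (h6.trans he')
  exact (Nat.Coprime.pow_left 2 ((Nat.Prime.coprime_iff_not_dvd hr).2 hD)).dvd_of_dvd_mul_right h7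

/-- **S4844, row `PΩ⁺`** -/
theorem sq_plus {S : Type u} [Group S] [Finite S] (h : IsPOmegaPlus S) (hs : IsSimpleGroup S) {p : ℕ}
    [hp : Fact p.Prime] (hp2 : p ≠ 2) (hd : p ^ 2 ∣ Nat.card S) : Cfsg.Agent.H33.IM (p ^ 2) S := by
  obtain ⟨F, _, _, m, hm, ⟨e⟩⟩ := h
  obtain ⟨r, hr⟩ := CharP.exists F
  have hpr : r.Prime := (CharP.char_is_prime_or_zero F r).resolve_right (CharP.char_ne_zero_of_finite F r)
  have : Fact r.Prime := ⟨hpr⟩
  by_cases hrp : p = r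
  · subst hrp
    have hL : IsLieTypeChar p S := by
      refine Or.inr (Or.inr (Or.inr (Or.inr (Or.inl ⟨F, inferInstance, inferInstance, inferInstance, m, hm, ⟨e⟩⟩))))
    exact sq_char hL hd
  rw [IM.congr e]
  rw [Nat.card_congr e.toEquiv] at hd
  exact sq_plus_main F (p := r) hm hp.1 hp2 hrp hd

end Cfsg.Agent.H734.PSq
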